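import Cfsg.Agent.Chevalley.Order
import Cfsg.Agent.Chevalley.Data.SysB2

/-! Minimal coset representatives, the length generating function and the torus of type B2. -/

set_option autoImplicit false
set_option maxHeartbeats 1000000

namespace CfsgLib.Chevalley

/-- Representatives, step 0. -/
def levB20 : Level where
  sub := []
  top := [0]
  reps := [0x706050403020100, 0x406020700050103]
  parent := [(0, 0), (0, 0)]
  nxt := [[1], [0]]
  lens := [0, 1]

theorem chkLevB20 : chkLevel Cfsg.Lie.chevB2 tabB2 levB20 = true := by decide +kernel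

/-- Representatives, step 1. -/
def levB21 : Level where
  sub := [0]
  top := [0, 1]
  reps := [0x706050403020100, 0x705060304010200, 0x402060007010503, 0x301050007020604]
  parent := [(0, 0), (1, 0), (0, 1), (1, 2)]
  nxt := [[999, 1], [2, 0], [1, 3], [999, 2]]
  lens := [0, 1, 2, 3]

theorem chkLevB21 : chkLevel Cfsg.Lie.chevB2 tabB2 levB21 = true := by decide +kernel

/-- The length generating function of type B2. -/
theorem lenSumB2 (F : Type*) [Field F] (q : ℤ) :
    sysB2.lenSum (List.range 2) q = ((levB21.lens.map fun e => q ^ e).sum) * ((levB20.lens.map fun e => q ^ e).sum) := by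
  have hw : ∀ i < Cfsg.Lie.chevB2.rank, ∀ s < Cfsg.Lie.chevB2.nroots,
      Cfsg.Lie.chevB2.reflectRoot i s = tabB2.wF i s :=
    fun i hi s hs => reflectRoot_wF (checkedB2.cW i hi) hs
  rw [show List.range 2 = levB21.top from rfl, sysB2.lenSum_level F hw chkLevB21,
    show levB21.sub = List.range 1 from rfl]
  rw [show List.range 1 = levB20.top from rfl, sysB2.lenSum_level F hw chkLevB20,
    show levB20.sub = List.range 0 from rfl]
  rw [show List.range 0 = [] from rfl, Sys.lenSum_nil]
  ring

/-- The order of the diagonal subgroup of type B2. -/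
theorem natCardDiagonalB2 (F : Type*) [Field F] [Fintype F] :
    (Fintype.card F - 1).gcd 2 *
      Nat.card (Cfsg.Lie.chevB2.diagonalSubgroup F) = (Fintype.card F - 1) ^ 2 := by
  have h := sysB2.natCard_diagonal F (P := !![0, -1; 1, 2]) (P' := !![2, 1; -1, 0])
    (Q := !![1, 2; 0, 1]) (Q' := !![1, -2; 0, 1]) (d := ![1, 2])
    (by decide +kernel) (by decide +kernel) (by decide +kernel) (by decide +kernel)
  rw [Nat.card_units, Nat.card_eq_fintype_card] at h
  refine Eq.trans ?_ h
  congr 1
  show _ = ∏ k : Fin 2, (Fintype.card F - 1).gcd ((![1, 2] : Fin 2 → ℕ) k)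
  simp [Fin.prod_univ_succ]

end CfsgLib.Chevalley
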